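import Cfsg.Agent.H396.Comp.Quasi
import Cfsg.Agent.H818.Gen.Defs

/-!
# S2187, TRI-1 (COMP): generation for invariant products of quasisimple groups, `p = 3`
-/

set_option autoImplicit false
set_option linter.unusedSectionVars false

namespace Cfsg.Agent.H396.Comp

open Cfsg Subgroup Cfsg.Agent.H818.Gen
open scoped commutatorElement

/-! ### cocyclic subgroups -/

/-- `E / F` is cyclic -/
def CoC {X : Type*} [Group X] (F E : Subgroup X) : Prop := F ≤ E ∧ ∃ y ∈ E, ∀ e ∈ E, ∃ j : ℕ, e * y ^ j ∈ F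

section coc

variable {X : Type*} [Group X] {p : ℕ} [hp : Fact p.Prime]

theorem comm_of {E : Subgroup X} (hE : IsElementaryAbelian p E) {a b : X} (ha : a ∈ E) (hb : b ∈ E) : a * b = b * a :=
  congrArg Subtype.val (hE.1.1.1 ⟨a, ha⟩ ⟨b, hb⟩)

theorem coc_of_index {E F : Subgroup X} (hE : IsElementaryAbelian p E) (hF : F ≤ E) (hi : F.relIndex E = p) :
    CoC F E := by
  refine ⟨hF, ?_⟩
  have hn : (F.subgroupOf E).Normal := ⟨fun a ha g => by
    have : g * a * g⁻¹ = a := by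
      rw [hE.1.1.1 g a]; group
    rwa [this]⟩
  have hcard : Nat.card (↥E ⧸ F.subgroupOf E) = p := hi
  obtain ⟨y, hy⟩ : ∃ y : ↥E, y ∉ F.subgroupOf E := by
    by_contra hcon
    push Not at hcon
    have h1 : F.subgroupOf E = ⊤ := eq_top_iff.2 fun x _ => hcon x
    have h2 : F.relIndex E = 1 := by
      show (F.subgroupOf E).index = 1
      rw [h1]; exact index_top
    rw [hi] at h2
    exact hp.out.one_lt.ne' h2
  refine ⟨y, y.2, fun e he => ?_⟩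
  have h1 : (QuotientGroup.mk y : ↥E ⧸ F.subgroupOf E) ≠ 1 := fun h => hy ((QuotientGroup.eq_one_iff y).1 h)
  obtain ⟨j, hj⟩ := mem_powers_of_prime_card hcard (g' := (QuotientGroup.mk (⟨e, he⟩ : ↥E) : ↥E ⧸ F.subgroupOf E)⁻¹) h1
  refine ⟨j, ?_⟩
  have h2 : (QuotientGroup.mk ((⟨e, he⟩ : ↥E) * y ^ j) : ↥E ⧸ F.subgroupOf E) = 1 := by
    rw [QuotientGroup.mk_mul, QuotientGroup.mk_pow]
    have hj' : (QuotientGroup.mk y : ↥E ⧸ F.subgroupOf E) ^ j = (QuotientGroup.mk (⟨e, he⟩ : ↥E))⁻¹ := hj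
    rw [hj', mul_inv_cancel]
  exact mem_subgroupOf.1 ((QuotientGroup.eq_one_iff _).1 h2)

theorem coc_bot {E : Subgroup X} [Finite E] (hE : IsElementaryAbelian p E) (h : Nat.card E < p ^ 2) :
    CoC (⊥ : Subgroup X) E := by
  obtain ⟨m, hm⟩ := (elab_isPGroup hE).exists_card_eq
  rw [hm] at h
  have hm2 : m < 2 := (Nat.pow_lt_pow_iff_right hp.out.one_lt).1 h
  interval_cases m
  · rw [pow_zero] at hm
    have h1 : E = ⊥ := card_eq_one.1 hm
    exact ⟨bot_le, 1, E.one_mem, fun e he => ⟨0, by rw [h1] at he; simpa using he⟩⟩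
  · rw [pow_one] at hm
    refine coc_of_index hE bot_le ?_
    rw [relIndex_bot_left, hm]

theorem index_le_of_coc {E F : Subgroup X} [Finite E] (hE : IsElementaryAbelian p E) (h : CoC F E) :
    F.relIndex E = 1 ∨ F.relIndex E = p := by
  obtain ⟨hF, y, hy, hj⟩ := h
  have hyp : y ^ p = 1 := hE.2 y hy
  have h1 : F.relIndex E ≤ p := by
    show Nat.card (↥E ⧸ F.subgroupOf E) ≤ p
    have hsur : Function.Surjective (fun j : Fin p => (QuotientGroup.mk ((⟨y, hy⟩ : ↥E)⁻¹ ^ (j : ℕ)) : ↥E ⧸ F.subgroupOf E)) := by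
      intro q
      obtain ⟨e, rfl⟩ := QuotientGroup.mk_surjective q
      obtain ⟨j, hje⟩ := hj e e.2
      refine ⟨⟨j % p, Nat.mod_lt _ hp.out.pos⟩, ?_⟩
      show (QuotientGroup.mk ((⟨y, hy⟩ : ↥E)⁻¹ ^ (j % p)) : ↥E ⧸ F.subgroupOf E) = QuotientGroup.mk e
      have hyE : (⟨y, hy⟩ : ↥E) ^ p = 1 := Subtype.ext hyp
      have hmod : (⟨y, hy⟩ : ↥E)⁻¹ ^ (j % p) = (⟨y, hy⟩ : ↥E)⁻¹ ^ j := by
        conv_rhs => rw [← Nat.mod_add_div j p, pow_add, pow_mul, inv_pow _ p, hyE, inv_one, one_pow, mul_one]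
      rw [hmod, QuotientGroup.eq, mem_subgroupOf]
      have h3 : ((((⟨y, hy⟩ : ↥E)⁻¹ ^ j)⁻¹ * e : ↥E) : X) = (e : X) * y ^ j := by
        rw [inv_pow, inv_inv]
        exact comm_of hE (E.pow_mem hy j) e.2
      rw [h3]; exact hje
    have := Nat.card_le_card_of_surjective _ hsur
    rwa [Nat.card_eq_fintype_card (α := Fin p), Fintype.card_fin] at this
  obtain ⟨n, hn⟩ := (elab_isPGroup hE).exists_card_eq
  have hd : F.relIndex E ∣ p ^ n := by
    rw [← hn]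
    exact (F.subgroupOf E).index_dvd_card
  obtain ⟨m, -, hm⟩ := (Nat.dvd_prime_pow hp.out).1 hd
  rw [hm] at h1 ⊢
  have hm1 : m ≤ 1 := by
    by_contra hcon
    push Not at hcon
    have := Nat.pow_lt_pow_right hp.out.one_lt hcon
    rw [pow_one] at this
    omega
  interval_cases m
  · left; rfl
  · right; rw [pow_one]

end coc

section gen

variable {G : Type*} [Group G] [Finite G] {p : ℕ} [hp : Fact p.Prime]

theorem CF_le_of_coc {E F : Subgroup (MulAut G)} (hE : IsElementaryAbelian p E) (hc : p ≤ Nat.card E) (h : CoC F E) :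
    CF F ≤ Gam p E := by
  rcases index_le_of_coc hE h with h1 | h1
  · have h2 : E ≤ F := relIndex_eq_one.1 h1
    exact (CF_anti h2).trans (CF_le_Gam_of_card hE hc)
  · exact CF_le_Gam' h.1 h1

/-- restriction of automorphisms to an invariant subgroup -/
def rst {E₁ : Subgroup (MulAut G)} {K : Subgroup G} (hinv : ∀ φ ∈ E₁, ∀ a ∈ K, φ a ∈ K) : ↥E₁ →* MulAut ↥K where
  toFun φ :=
    { toFun := fun a => ⟨(φ : MulAut G) a, hinv φ φ.2 a a.2⟩
      invFun := fun a => ⟨(φ⁻¹ : MulAut G) a, hinv _ (E₁.inv_mem φ.2) a a.2⟩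
      left_inv := fun a => Subtype.ext ((φ : MulAut G).symm_apply_apply (a : G))
      right_inv := fun a => Subtype.ext ((φ : MulAut G).apply_symm_apply (a : G))
      map_mul' := fun a b => Subtype.ext (map_mul (φ : MulAut G) (a : G) (b : G)) }
  map_one' := by ext; rfl
  map_mul' _ _ := by ext; rfl

theorem rst_apply {E₁ : Subgroup (MulAut G)} {K : Subgroup G} (hinv : ∀ φ ∈ E₁, ∀ a ∈ K, φ a ∈ K) (φ : ↥E₁) (a : ↥K) :
    (rst hinv φ a : G) = (φ : MulAut G) a := rfl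

/-- **generation of `K` by the fixed points of the cocyclic subgroups** -/
theorem gen_coc {K : Subgroup G} (hgen : Gen p ↥K) {E₁ : Subgroup (MulAut G)} (hE : IsElementaryAbelian p E₁)
    (hinv : ∀ φ ∈ E₁, ∀ a ∈ K, φ a ∈ K) {H : Subgroup G}
    (hH : ∀ B : Subgroup (MulAut G), CoC B E₁ → ∀ k ∈ K, (∀ φ ∈ B, φ k = k) → k ∈ H) : K ≤ H := by
  set R : Subgroup (MulAut ↥K) := (rst hinv).range with hR
  have hRE : IsElementaryAbelian p R := by
    refine ⟨⟨⟨?_⟩⟩, ?_⟩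
    · rintro ⟨_, a, rfl⟩ ⟨_, b, rfl⟩
      refine Subtype.ext ?_
      show rst hinv a * rst hinv b = rst hinv b * rst hinv a
      rw [← map_mul, ← map_mul, hE.1.1.1 a b]
    · rintro _ ⟨a, rfl⟩
      rw [← map_pow]
      have : a ^ p = 1 := Subtype.ext (hE.2 a a.2)
      rw [this, map_one]
  have key : ∀ F : Subgroup (MulAut ↥K), CoC F R → CoC ((F.comap (rst hinv)).map E₁.subtype) E₁ := by
    rintro F ⟨-, y', ⟨y, rfl⟩, hj⟩
    refine ⟨map_subtype_le _, y, y.2, fun e he => ?_⟩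
    obtain ⟨j, hj'⟩ := hj (rst hinv ⟨e, he⟩) ⟨⟨e, he⟩, rfl⟩
    refine ⟨j, ⟨⟨e, he⟩ * y ^ j, ?_, rfl⟩⟩
    show rst hinv (⟨e, he⟩ * y ^ j) ∈ F
    rw [map_mul, map_pow]
    exact hj'
  rcases Nat.lt_or_ge (Nat.card R) (p ^ 2) with hlt | hge
  · intro k hk
    refine hH _ (key ⊥ (coc_bot hRE hlt)) k hk ?_
    rintro _ ⟨φ, hφ, rfl⟩
    have h1 : rst hinv φ = 1 := by
      have h2 : rst hinv φ ∈ (⊥ : Subgroup (MulAut ↥K)) := hφ
      exact mem_bot.1 h2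
    have h2 := congrArg (fun ψ : MulAut ↥K => (ψ ⟨k, hk⟩ : G)) h1
    exact h2
  · have h1 : Gam p R ≤ H.subgroupOf K := by
      refine Gam_le fun F hF hi => ?_
      intro k hk
      rw [mem_subgroupOf]
      refine hH _ (key F (coc_of_index hRE hF hi)) k k.2 ?_
      rintro _ ⟨φ, hφ, rfl⟩
      have h2 : rst hinv φ k = k := hk _ hφ
      exact congrArg Subtype.val h2
    rw [hgen R hRE hge] at h1
    intro k hk
    exact h1 (x := ⟨k, hk⟩) trivial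

/-- invariant subgroups -/
theorem le_Gam_of_inv {K : Subgroup G} (hgen : Gen p ↥K) {E : Subgroup (MulAut G)} (hE : IsElementaryAbelian p E)
    (hc : p ≤ Nat.card E) (hinv : ∀ φ ∈ E, ∀ a ∈ K, φ a ∈ K) : K ≤ Gam p E :=
  gen_coc hgen hE hinv fun _ hB _ _ hf => CF_le_of_coc hE hc hB hf

end gen

/-! ### commutators -/

section comm

variable {K : Type*} [Group K]

theorem inv_mul_conj (φ : K →* K) (a k : K) :
    a * (k⁻¹ * φ k) * a⁻¹ = ((k * a⁻¹)⁻¹ * φ (k * a⁻¹)) * ((a⁻¹)⁻¹ * φ a⁻¹)⁻¹ := by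
  rw [map_mul, map_inv]; group

/-- `[K, φ] = K` for a nontrivial endomorphism of a quasisimple group -/
theorem closure_eq_top (hK : IsQuasisimple K) {φ : K →* K} (hφ : ∃ k, φ k ≠ k) :
    closure {x : K | ∃ k, x = k⁻¹ * φ k} = ⊤ := by
  have hn : (closure {x : K | ∃ k, x = k⁻¹ * φ k}).Normal := by
    refine ⟨fun x hx a => ?_⟩
    induction hx using closure_induction with
    | mem x hx =>
      obtain ⟨k, rfl⟩ := hx
      rw [inv_mul_conj]
      exact mul_mem (subset_closure ⟨_, rfl⟩) (inv_mem (subset_closure ⟨_, rfl⟩))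
    | one => rw [mul_one, mul_inv_cancel]; exact one_mem _
    | mul x y _ _ hx hy =>
      have : a * (x * y) * a⁻¹ = (a * x * a⁻¹) * (a * y * a⁻¹) := by group
      rw [this]; exact mul_mem hx hy
    | inv x _ hx =>
      have : a * x⁻¹ * a⁻¹ = (a * x * a⁻¹)⁻¹ := by group
      rw [this]; exact inv_mem hx
  rcases normal_cases hK hn with h | h
  · exfalso
    have hz : ∀ k g : K, g * (k⁻¹ * φ k) = (k⁻¹ * φ k) * g := fun k g =>
      mem_center_iff.1 (h (subset_closure ⟨k, rfl⟩)) g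
    let f : K →* K :=
      { toFun := fun k => k⁻¹ * φ k
        map_one' := by simp
        map_mul' := fun a b => by
          show (a * b)⁻¹ * φ (a * b) = (a⁻¹ * φ a) * (b⁻¹ * φ b)
          rw [map_mul]
          calc (a * b)⁻¹ * (φ a * φ b) = b⁻¹ * (a⁻¹ * φ a) * φ b := by group
            _ = (a⁻¹ * φ a) * b⁻¹ * φ b := by rw [hz a b⁻¹]
            _ = (a⁻¹ * φ a) * (b⁻¹ * φ b) := by group }
    obtain ⟨k, hk⟩ := hφ
    have h1 := perfect_hom hK.1 f (fun x y => (hz x (f y)).symm) k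
    have h2 : k⁻¹ * φ k = 1 := h1
    exact hk (inv_mul_eq_one.1 h2).symm
  · exact h

/-- a non-central commutator -/
theorem exists_noncentral (hK : IsQuasisimple K) {φ ψ : K →* K} (hφ : ∃ k, φ k ≠ k) (hψ : ∃ k, ψ k ≠ k) :
    ∃ k k' : K, ⁅k⁻¹ * φ k, k'⁻¹ * ψ k'⁆ ∉ center K := by
  by_contra hcon
  push Not at hcon
  have hq : ∀ a b : K, ⁅a, b⁆ ∈ center K ↔ (QuotientGroup.mk a : K ⧸ center K) * QuotientGroup.mk b =
      QuotientGroup.mk b * QuotientGroup.mk a := by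
    intro a b
    rw [← QuotientGroup.mk_mul, ← QuotientGroup.mk_mul, eq_comm, QuotientGroup.eq]
    have hn : (center K).Normal := inferInstance
    constructor
    · intro h
      have h1 := hn.conj_mem _ h (b * a)⁻¹
      have h2 : (b * a)⁻¹ * ⁅a, b⁆ * ((b * a)⁻¹)⁻¹ = (b * a)⁻¹ * (a * b) := by
        rw [commutatorElement_def]; group
      rwa [h2] at h1
    · intro h
      have h1 := hn.conj_mem _ h (b * a)
      have h2 : (b * a) * ((b * a)⁻¹ * (a * b)) * (b * a)⁻¹ = ⁅a, b⁆ := by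
        rw [commutatorElement_def]; group
      rwa [h2] at h1
  -- first variable
  have h1 : ∀ k' : K, ∀ x : K, ⁅x, k'⁻¹ * ψ k'⁆ ∈ center K := by
    intro k' x
    have hx : x ∈ closure {x : K | ∃ k, x = k⁻¹ * φ k} := by rw [closure_eq_top hK hφ]; trivial
    rw [hq]
    induction hx using closure_induction with
    | mem x hx =>
      obtain ⟨k, rfl⟩ := hx
      exact (hq _ _).1 (hcon k k')
    | one => rw [QuotientGroup.mk_one, one_mul, mul_one]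
    | mul x y _ _ hx hy =>
      rw [QuotientGroup.mk_mul, mul_assoc, hy, ← mul_assoc, hx, mul_assoc]
    | inv x _ hx =>
      rw [QuotientGroup.mk_inv]
      exact (Commute.inv_left (show Commute _ _ from hx)).eq
  have h2 : ∀ x y : K, ⁅x, y⁆ ∈ center K := by
    intro x y
    have hy : y ∈ closure {x : K | ∃ k, x = k⁻¹ * ψ k} := by rw [closure_eq_top hK hψ]; trivial
    rw [hq]
    induction hy using closure_induction with
    | mem y hy =>
      obtain ⟨k, rfl⟩ := hy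
      exact (hq _ _).1 (h1 k x)
    | one => rw [QuotientGroup.mk_one, one_mul, mul_one]
    | mul y z _ _ hy hz =>
      rw [QuotientGroup.mk_mul, ← mul_assoc, hy, mul_assoc, hz, mul_assoc]
    | inv y _ hy =>
      rw [QuotientGroup.mk_inv]
      exact (Commute.inv_right (show Commute _ _ from hy)).eq
  have h3 : commutator K ≤ center K := by
    rw [commutator_def, Subgroup.commutator_le]
    intro a _ b _
    exact h2 a b
  rw [hK.1.commutator_eq_top] at h3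
  obtain ⟨a, b, hab⟩ := not_comm hK
  exact hab (mem_center_iff.1 (h3 (show b ∈ ⊤ from trivial)) a)

end comm

/-! ### three permuted groups -/

section perm

variable {G : Type*} [Group G] [Finite G]

theorem perm3 {E : Subgroup (MulAut G)} (hE : IsElementaryAbelian 3 E) (hc : 3 ≤ Nat.card E) {K : Subgroup G}
    (hK : IsQuasisimple ↥K) (hgen : Gen 3 ↥K) {ρ : MulAut G} (hρ : ρ ∈ E) {E₁ : Subgroup (MulAut G)} (h1E : E₁ ≤ E)
    (hinv : ∀ φ ∈ E₁, ∀ a ∈ K, φ a ∈ K) (hcos : ∀ e ∈ E, ∃ j : ℕ, e * ρ ^ j ∈ E₁)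
    (hc1 : ∀ a ∈ K, ∀ b ∈ K, a * ρ b = ρ b * a) (hc2 : ∀ a ∈ K, ∀ b ∈ K, a * ρ (ρ b) = ρ (ρ b) * a) :
    K ≤ Gam 3 E := by
  have hE₁ : IsElementaryAbelian 3 E₁ := elab_mono h1E hE
  have hcomm : ∀ {φ ψ : MulAut G}, φ ∈ E → ψ ∈ E → ∀ a, φ (ψ a) = ψ (φ a) := by
    intro φ ψ hφ hψ a
    have h := comm_of hE hφ hψ
    exact DFunLike.congr_fun h a
  have hcube : ∀ {φ : MulAut G}, φ ∈ E → ∀ a, φ (φ (φ a)) = a := by
    intro φ hφ a
    have h := hE.2 φ hφ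
    have h1 : φ ^ 3 = φ * (φ * φ) := by rw [pow_succ, pow_two, mul_assoc]
    rw [h1] at h
    exact DFunLike.congr_fun h a
  by_cases hC : ∀ φ ∈ E₁, ∀ a ∈ K, φ a = a
  · intro k hk
    exact CF_le_of_coc hE hc ⟨h1E, ρ, hρ, hcos⟩ fun φ hφ => hC φ hφ k hk
  push Not at hC
  obtain ⟨f, hf, a₀, ha₀, hfa⟩ := hC
  have hfE := h1E hf
  -- the diagonals
  have hdiag : ∀ g ∈ E₁, ∀ k ∈ K, k * ρ (g k) * ρ (ρ (g (g k))) ∈ Gam 3 E := by
    intro g hg
    have hgE := h1E hg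
    have hgK : ∀ k ∈ K, g k ∈ K := hinv g hg
    set σ : MulAut G := ρ * g with hσ
    have hσE : σ ∈ E := E.mul_mem hρ hgE
    have e1 : ∀ k, σ k = ρ (g k) := fun k => rfl
    have e2 : ∀ k, σ (σ k) = ρ (ρ (g (g k))) := by
      intro k
      rw [e1, e1, hcomm hgE hρ]
    have c1 : ∀ a ∈ K, ∀ b ∈ K, a * σ b = σ b * a := fun a ha b hb => by rw [e1]; exact hc1 a ha _ (hgK b hb)
    have c2 : ∀ a ∈ K, ∀ b ∈ K, a * σ (σ b) = σ (σ b) * a := fun a ha b hb => by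
      rw [e2]; exact hc2 a ha _ (hgK _ (hgK b hb))
    have c3 : ∀ a ∈ K, ∀ b ∈ K, σ a * σ (σ b) = σ (σ b) * σ a := fun a ha b hb => by
      rw [← map_mul, c1 a ha b hb, map_mul]
    let D : ↥K →* G :=
      { toFun := fun k => k * σ k * σ (σ k)
        map_one' := by simp
        map_mul' := fun a b => by
          show (a : G) * b * σ ((a : G) * b) * σ (σ ((a : G) * b)) = (a * σ a * σ (σ a)) * (b * σ b * σ (σ b))
          rw [map_mul, map_mul]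
          calc (a : G) * b * (σ a * σ b) * (σ (σ a) * σ (σ b))
              = a * (b * σ a) * σ b * σ (σ a) * σ (σ b) := by group
            _ = a * (σ a * b) * σ b * σ (σ a) * σ (σ b) := by rw [c1 b b.2 a a.2]
            _ = a * σ a * b * (σ b * σ (σ a)) * σ (σ b) := by group
            _ = a * σ a * b * (σ (σ a) * σ b) * σ (σ b) := by rw [c3 b b.2 a a.2]
            _ = a * σ a * (b * σ (σ a)) * σ b * σ (σ b) := by group
            _ = a * σ a * (σ (σ a) * b) * σ b * σ (σ b) := by rw [c2 b b.2 a a.2]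
            _ = (a * σ a * σ (σ a)) * (b * σ b * σ (σ b)) := by group }
    have hDa : ∀ k : ↥K, D k = k * σ k * σ (σ k) := fun _ => rfl
    have hle : K ≤ ((Gam 3 E).comap D).map K.subtype := by
      refine gen_coc hgen hE₁ hinv fun B hB k hk hfix => ?_
      refine ⟨⟨k, hk⟩, ?_, rfl⟩
      show D ⟨k, hk⟩ ∈ Gam 3 E
      have hBE : B ≤ E := hB.1.trans h1E
      have hcoc : CoC (B ⊔ zpowers σ) E := by
        refine ⟨sup_le hBE (zpowers_le.2 hσE), ?_⟩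
        obtain ⟨-, y, hy, hj⟩ := hB
        refine ⟨y, h1E hy, fun e he => ?_⟩
        obtain ⟨j, hj1⟩ := hcos e he
        obtain ⟨i, hi⟩ := hj (e * ρ ^ j * g ^ j) (E₁.mul_mem hj1 (E₁.pow_mem hg j))
        refine ⟨i, ?_⟩
        have h3 : e * y ^ i = (e * ρ ^ j * g ^ j * y ^ i) * (σ ^ j)⁻¹ := by
          have h4 : σ ^ j = ρ ^ j * g ^ j := by
            rw [hσ]; exact (show Commute ρ g from comm_of hE hρ hgE).mul_pow j
          have h5 : (ρ ^ j * g ^ j) * y ^ i = y ^ i * (ρ ^ j * g ^ j) :=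
            comm_of hE (E.mul_mem (E.pow_mem hρ j) (E.pow_mem hgE j)) (E.pow_mem (h1E hy) i)
          rw [h4]
          calc e * y ^ i = e * (y ^ i * (ρ ^ j * g ^ j)) * (ρ ^ j * g ^ j)⁻¹ := by group
            _ = e * ((ρ ^ j * g ^ j) * y ^ i) * (ρ ^ j * g ^ j)⁻¹ := by rw [h5]
            _ = (e * ρ ^ j * g ^ j * y ^ i) * (ρ ^ j * g ^ j)⁻¹ := by group
        rw [h3]
        exact mul_mem (mem_sup_left hi) (inv_mem (mem_sup_right (pow_mem (mem_zpowers σ) j)))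
      refine CF_le_of_coc hE hc hcoc ?_
      have hst : B ⊔ zpowers σ ≤ MulAction.stabilizer (MulAut G) (D ⟨k, hk⟩) := by
        refine sup_le ?_ (zpowers_le.2 ?_)
        · intro φ hφ
          show φ (D ⟨k, hk⟩) = D ⟨k, hk⟩
          rw [hDa]
          show φ (k * σ k * σ (σ k)) = k * σ k * σ (σ k)
          rw [map_mul, map_mul, hcomm (hBE hφ) hσE, hcomm (hBE hφ) hσE, hcomm (hBE hφ) hσE, hfix φ hφ]
        · show σ (D ⟨k, hk⟩) = D ⟨k, hk⟩
          rw [hDa]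
          show σ (k * σ k * σ (σ k)) = k * σ k * σ (σ k)
          rw [map_mul, map_mul, hcube hσE, mul_assoc, ← c2 k hk k hk, ← mul_assoc, ← c1 k hk k hk]
      exact fun φ hφ => hst hφ
    intro k hk
    obtain ⟨k', hk', hkk⟩ := hle hk
    have h1 : k' = ⟨k, hk⟩ := Subtype.ext hkk
    rw [h1] at hk'
    have h2 : D ⟨k, hk⟩ ∈ Gam 3 E := hk'
    rw [hDa] at h2
    have h3 : k * σ k * σ (σ k) ∈ Gam 3 E := h2
    rwa [e2, e1] at h3
  set M := Gam 3 E with hM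
  have hMρ : ∀ m ∈ M, ρ m ∈ M := fun m hm => conj_Gam (φ := ρ)
    (fun e he => E.mul_mem (E.mul_mem hρ he) (E.inv_mem hρ)) (fun e he => E.mul_mem (E.mul_mem (E.inv_mem hρ) he) hρ) hm
  have hd1 : ∀ k ∈ K, k * ρ k * ρ (ρ k) ∈ M := fun k hk => hdiag 1 E₁.one_mem k hk
  have hdf := hdiag f hf
  have hfK : ∀ k ∈ K, f k ∈ K := hinv f hf
  -- `K` normalises `M ⊓ K`
  have hnorm : ∀ a ∈ K, ∀ d ∈ M ⊓ K, a * d * a⁻¹ ∈ M ⊓ K := by
    intro a ha d hd
    refine ⟨?_, K.mul_mem (K.mul_mem ha hd.2) (K.inv_mem ha)⟩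
    have h1 : a * d * a⁻¹ = (a * ρ a * ρ (ρ a)) * d * (a * ρ a * ρ (ρ a))⁻¹ := by
      have h2 : (a * ρ a * ρ (ρ a)) * d * (a * ρ a * ρ (ρ a))⁻¹ =
          a * (ρ a * ((ρ (ρ a)) * d) * (ρ (ρ a))⁻¹ * (ρ a)⁻¹) * a⁻¹ := by group
      rw [h2, ← hc2 d hd.2 a ha]
      have h3 : ρ a * (d * ρ (ρ a)) * (ρ (ρ a))⁻¹ * (ρ a)⁻¹ = (ρ a * d) * (ρ a)⁻¹ := by group
      rw [h3, ← hc1 d hd.2 a ha, mul_inv_cancel_right]
    rw [h1]
    exact M.mul_mem (M.mul_mem (hd1 a ha) hd.1) (M.inv_mem (hd1 a ha))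
  have k1 : ∀ a ∈ K, ∀ b ∈ K, Commute a (ρ b) := hc1
  have k2 : ∀ a ∈ K, ∀ b ∈ K, Commute a (ρ (ρ b)) := hc2
  have k3 : ∀ a ∈ K, ∀ b ∈ K, Commute (ρ a) (ρ (ρ b)) := fun a ha b hb => by
    have := congrArg ρ (hc1 a ha b hb)
    rw [map_mul, map_mul] at this
    exact this
  -- the commutators
  have hcom : ∀ k ∈ K, ∀ k' ∈ K, ⁅k⁻¹ * f (f k), k'⁻¹ * f k'⁆ ∈ M := by
    -- `v k = ρ (k⁻¹ f k) ρ² (k⁻¹ f² k)`
    have hv : ∀ k ∈ K, ρ (k⁻¹ * f k) * ρ (ρ (k⁻¹ * f (f k))) ∈ M := by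
      intro k hk
      have h1 := M.mul_mem (M.inv_mem (hd1 k hk)) (hdf k hk)
      have h2 : (k * ρ k * ρ (ρ k))⁻¹ * (k * ρ (f k) * ρ (ρ (f (f k)))) =
          ρ (k⁻¹ * f k) * ρ (ρ (k⁻¹ * f (f k))) := by
        have h3 : (ρ (ρ k))⁻¹ * ρ (k⁻¹ * f k) = ρ (k⁻¹ * f k) * (ρ (ρ k))⁻¹ :=
          ((k3 _ (K.mul_mem (K.inv_mem hk) (hfK k hk)) k hk).inv_right).eq.symm
        have h7 : ρ (ρ (k⁻¹ * f (f k))) = (ρ (ρ k))⁻¹ * ρ (ρ (f (f k))) := by
          rw [map_mul, map_mul, map_inv, map_inv]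
        have h6 : (k * ρ k * ρ (ρ k))⁻¹ * (k * ρ (f k) * ρ (ρ (f (f k)))) =
            ((ρ (ρ k))⁻¹ * ρ (k⁻¹ * f k)) * ρ (ρ (f (f k))) := by
          rw [map_mul, map_inv]; group
        rw [h6, h3, h7, mul_assoc]
      rwa [h2] at h1
    intro k hk k' hk'
    set s := k⁻¹ * f k with hs
    set t := k⁻¹ * f (f k) with ht
    set s' := k'⁻¹ * f k' with hs'
    set t' := k'⁻¹ * f (f k') with ht'
    have hsK : s ∈ K := K.mul_mem (K.inv_mem hk) (hfK k hk)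
    have htK : t ∈ K := K.mul_mem (K.inv_mem hk) (hfK _ (hfK k hk))
    have hs'K : s' ∈ K := K.mul_mem (K.inv_mem hk') (hfK k' hk')
    have ht'K : t' ∈ K := K.mul_mem (K.inv_mem hk') (hfK _ (hfK k' hk'))
    have h1 : ρ s * ρ (ρ t) ∈ M := hv k hk
    have h2 : ρ (ρ s') * t' ∈ M := by
      have h3 := hMρ _ (hv k' hk')
      rw [map_mul, hcube hρ] at h3
      exact h3
    -- the commutator of the two
    have h3 : (ρ s * ρ (ρ t)) * (ρ (ρ s') * t') * (ρ s * ρ (ρ t))⁻¹ * (ρ (ρ s') * t')⁻¹ ∈ M :=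
      M.mul_mem (M.mul_mem (M.mul_mem h1 h2) (M.inv_mem h1)) (M.inv_mem h2)
    have h4 : (ρ s * ρ (ρ t)) * (ρ (ρ s') * t') * (ρ s * ρ (ρ t))⁻¹ * (ρ (ρ s') * t')⁻¹ =
        ρ (ρ t) * ρ (ρ s') * (ρ (ρ t))⁻¹ * (ρ (ρ s'))⁻¹ := by
      have c1 : Commute (ρ s) (ρ (ρ t) * (ρ (ρ s') * t') * (ρ (ρ t))⁻¹) :=
        ((k3 s hsK t htK).mul_right ((k3 s hsK s' hs'K).mul_right (k1 t' ht'K s hsK).symm)).mul_right
          (k3 s hsK t htK).inv_right
      have c2 : Commute t' (ρ (ρ t))⁻¹ := (k2 t' ht'K t htK).inv_right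
      calc (ρ s * ρ (ρ t)) * (ρ (ρ s') * t') * (ρ s * ρ (ρ t))⁻¹ * (ρ (ρ s') * t')⁻¹
          = ρ s * (ρ (ρ t) * (ρ (ρ s') * t') * (ρ (ρ t))⁻¹) * (ρ s)⁻¹ * (ρ (ρ s') * t')⁻¹ := by group
        _ = (ρ (ρ t) * (ρ (ρ s') * t') * (ρ (ρ t))⁻¹) * ρ s * (ρ s)⁻¹ * (ρ (ρ s') * t')⁻¹ := by rw [c1.eq]
        _ = ρ (ρ t) * ρ (ρ s') * (t' * (ρ (ρ t))⁻¹) * t'⁻¹ * (ρ (ρ s'))⁻¹ := by group
        _ = ρ (ρ t) * ρ (ρ s') * ((ρ (ρ t))⁻¹ * t') * t'⁻¹ * (ρ (ρ s'))⁻¹ := by rw [c2.eq]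
        _ = ρ (ρ t) * ρ (ρ s') * (ρ (ρ t))⁻¹ * (ρ (ρ s'))⁻¹ := by group
    rw [h4] at h3
    have h5 := hMρ _ h3
    rw [map_mul, map_mul, map_mul, map_inv, map_inv, hcube hρ, hcube hρ] at h5
    rw [commutatorElement_def]
    exact h5
  -- a noncentral commutator
  let φ₁ : MulAut ↥K := rst hinv ⟨f, hf⟩
  have hφ1 : ∀ k : ↥K, (φ₁ k : G) = f k := fun k => rfl
  obtain ⟨k, k', hkk⟩ := exists_noncentral (K := ↥K) hK (φ := (φ₁ * φ₁ : MulAut ↥K).toMonoidHom)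
    (ψ := φ₁.toMonoidHom) (by
      refine ⟨⟨f a₀, hfK a₀ ha₀⟩, fun h => hfa ?_⟩
      have h1 : f (f (f a₀)) = f a₀ := congrArg Subtype.val h
      rw [hcube hfE] at h1
      exact h1.symm) ⟨⟨a₀, ha₀⟩, fun h => hfa (congrArg Subtype.val h)⟩
  have hz : ⁅(k : G)⁻¹ * f (f k), (k' : G)⁻¹ * f k'⁆ ∈ M := hcom k k.2 k' k'.2
  rcases le_or_central hK (D := M ⊓ K) inf_le_right hnorm with h | h
  · rw [← h]; exact inf_le_left
  · exfalso
    apply hkk
    rw [mem_center_iff]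
    intro g
    apply Subtype.ext
    have h2 := h ⁅(k : G)⁻¹ * f (f k), (k' : G)⁻¹ * f k'⁆ ⟨hz, by
      have := (⁅k⁻¹ * (φ₁ * φ₁ : MulAut ↥K).toMonoidHom k, k'⁻¹ * φ₁.toMonoidHom k'⁆ : ↥K).2
      exact this⟩ g g.2
    exact h2.symm

/-- **TRI-1 (COMP)**, `p = 3`, at most three factors -/
theorem comp_le {E : Subgroup (MulAut G)} (hE : IsElementaryAbelian 3 E) (hc : 3 ≤ Nat.card E)
    {n : ℕ} (hn : n ≤ 3) (K : Fin n → Subgroup G) (hK : ∀ i, IsQuasisimple ↥(K i))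
    (hcomm : ∀ i j, i ≠ j → ∀ a ∈ K i, ∀ b ∈ K j, a * b = b * a)
    (hinv : ∀ φ ∈ E, (⨆ i, K i).map φ.toMonoidHom = ⨆ i, K i)
    (hgen : ∀ i, Gen 3 ↥(K i)) : ⨆ i, K i ≤ Gam 3 E := by
  refine iSup_le fun i => ?_
  have hKinj : ∀ j j', K j = K j' → j = j' := by
    intro j j' h
    by_contra hne
    exact not_comm' (hK j) fun a ha b hb => hcomm j j' hne a ha b (by rw [← h]; exact hb)
  have hperm : ∀ φ ∈ E, ∀ j, ∃ j', (K j).map φ.toMonoidHom = K j' := by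
    intro φ hφ j
    refine eq_of_comm hK hcomm (quasi_congr (φ.subgroupMap (K j)) (hK j)) ?_ ?_
    · calc (K j).map φ.toMonoidHom ≤ (⨆ i, K i).map φ.toMonoidHom := map_mono (le_iSup K j)
        _ = ⨆ i, K i := hinv φ hφ
    · rintro a ha _ ⟨x, hx, rfl⟩
      rw [← hinv φ hφ] at ha
      obtain ⟨a', ha', rfl⟩ := ha
      exact ⟨a' * x * a'⁻¹, conj_mem_of_comm hcomm j ha' hx, by simp⟩
  have hmm : ∀ (φ ψ : MulAut G) (H : Subgroup G), (H.map φ.toMonoidHom).map ψ.toMonoidHom = H.map (ψ * φ).toMonoidHom := by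
    intro φ ψ H
    rw [Subgroup.map_map]
    rfl
  have hmi : ∀ (φ : MulAut G) (H H' : Subgroup G), H.map φ.toMonoidHom = H'.map φ.toMonoidHom → H = H' :=
    fun φ H H' h => map_injective φ.injective h
  have hm1 : ∀ H : Subgroup G, H.map (1 : MulAut G).toMonoidHom = H := fun H => Subgroup.map_id H
  by_cases hi : ∀ φ ∈ E, (K i).map φ.toMonoidHom = K i
  · exact le_Gam_of_inv (hgen i) hE hc fun φ hφ a ha => by
      rw [← hi φ hφ]; exact ⟨a, ha, rfl⟩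
  push Not at hi
  obtain ⟨ρ, hρ, hρi⟩ := hi
  have hρ3 : ρ ^ 3 = 1 := hE.2 ρ hρ
  let E₁ : Subgroup (MulAut G) :=
    { carrier := {φ | φ ∈ E ∧ (K i).map φ.toMonoidHom = K i}
      one_mem' := ⟨E.one_mem, hm1 _⟩
      mul_mem' := fun {a b} ha hb => ⟨E.mul_mem ha.1 hb.1, by rw [← hmm, hb.2, ha.2]⟩
      inv_mem' := fun {a} ha => ⟨E.inv_mem ha.1, by
        apply hmi a
        rw [hmm, mul_inv_cancel, hm1, ha.2]⟩ }
  obtain ⟨j1, hj1⟩ := hperm ρ hρ i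
  obtain ⟨j2, hj2⟩ := hperm ρ hρ j1
  obtain ⟨j3, hj3⟩ := hperm ρ hρ j2
  have h1 : j1 ≠ i := fun h => hρi (by rw [hj1, h])
  have hj3i : K j3 = K i := by
    have h3 : (K i).map (ρ * (ρ * ρ)).toMonoidHom = K j3 := by rw [← hmm, ← hmm, hj1, hj2, hj3]
    have h4 : ρ * (ρ * ρ) = 1 := by rw [← hρ3, pow_succ, pow_two, mul_assoc]
    rw [h4, hm1] at h3
    exact h3.symm
  rw [hj3i] at hj3
  have h2 : j2 ≠ j1 := fun h => h1 (hKinj _ _ (hmi ρ _ _ (by rw [hj2, h, hj1])))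
  have h3 : j2 ≠ i := by
    intro h
    rw [h, hj1] at hj3
    exact h1 (hKinj _ _ hj3)
  refine perm3 hE hc (hK i) (hgen i) hρ (E₁ := E₁) (fun φ hφ => hφ.1) (fun φ hφ a ha => ?_) (fun e he => ?_)
    (fun a ha b hb => ?_) (fun a ha b hb => ?_)
  · rw [← hφ.2]; exact ⟨a, ha, rfl⟩
  · obtain ⟨j, hj⟩ := hperm e he i
    have hj' : j = i ∨ j = j1 ∨ j = j2 := by
      by_contra hcon
      push Not at hcon
      have a1 := fun h => hcon.1 (Fin.ext h)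
      have a2 := fun h => hcon.2.1 (Fin.ext h)
      have a3 := fun h => hcon.2.2 (Fin.ext h)
      have a4 := fun h => h1 (Fin.ext h)
      have a5 := fun h => h2 (Fin.ext h)
      have a6 := fun h => h3 (Fin.ext h)
      have b1 := j.2
      have b2 := i.2
      have b3 := j1.2
      have b4 := j2.2
      omega
    have hcm : ∀ m : ℕ, (K i).map (e * ρ ^ m).toMonoidHom = (K j).map (ρ ^ m).toMonoidHom := by
      intro m
      have h5 : e * ρ ^ m = ρ ^ m * e := comm_of hE he (E.pow_mem hρ m)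
      rw [h5, ← hmm, hj]
    rcases hj' with rfl | rfl | rfl
    · exact ⟨0, E.mul_mem he (E.pow_mem hρ 0), by rw [hcm, pow_zero, hm1]⟩
    · refine ⟨2, E.mul_mem he (E.pow_mem hρ 2), ?_⟩
      rw [hcm, pow_two, ← hmm, hj2, hj3]
    · refine ⟨1, E.mul_mem he (E.pow_mem hρ 1), ?_⟩
      rw [hcm, pow_one, hj3]
  · exact hcomm i j1 h1.symm a ha _ (by rw [← hj1]; exact ⟨b, hb, rfl⟩)
  · exact hcomm i j2 h3.symm a ha _ (by rw [← hj2, ← hj1]; exact ⟨ρ b, ⟨b, hb, rfl⟩, rfl⟩)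

end perm

end Cfsg.Agent.H396.Comp
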