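import Cfsg.Prelude.Def_CaseTheorems

/-!
# S2187, TRI-1: commuting quasisimple subgroups
-/

set_option autoImplicit false

namespace Cfsg.Agent.H396.Comp

open Subgroup
open scoped commutatorElement

/-- a homomorphism of a perfect group with commutative image is trivial -/
theorem perfect_hom {L M : Type*} [Group L] [Group M] (hL : Group.IsPerfect L) (f : L →* M)
    (hc : ∀ x y, f x * f y = f y * f x) (x : L) : f x = 1 := by
  have h1 : commutator L ≤ f.ker := by
    rw [commutator_def, Subgroup.commutator_le]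
    intro a _ b _
    rw [MonoidHom.mem_ker, map_commutatorElement, commutatorElement_def, hc a b]
    group
  have h2 : (x : L) ∈ commutator L := by rw [hL.commutator_eq_top]; trivial
  exact h1 h2

theorem not_comm {K : Type*} [Group K] (hK : Cfsg.IsQuasisimple K) : ∃ a b : K, a * b ≠ b * a := by
  by_contra h
  push Not at h
  have h1 : center K = ⊤ := by
    rw [eq_top_iff]
    intro x _
    rw [mem_center_iff]
    exact fun g => h g x
  have h2 : Nontrivial (K ⧸ center K) := hK.2.toNontrivial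
  obtain ⟨a, b, hab⟩ := h2.exists_pair_ne
  apply hab
  obtain ⟨a, rfl⟩ := QuotientGroup.mk_surjective a
  obtain ⟨b, rfl⟩ := QuotientGroup.mk_surjective b
  rw [QuotientGroup.eq, h1]
  trivial

/-- normal subgroups of a quasisimple group -/
theorem normal_cases {K : Type*} [Group K] (hK : Cfsg.IsQuasisimple K) {L : Subgroup K} (hL : L.Normal) :
    L ≤ center K ∨ L = ⊤ := by
  have hs := hK.2
  have h1 : (L.map (QuotientGroup.mk' (center K))).Normal :=
    hL.map _ (QuotientGroup.mk'_surjective _)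
  rcases h1.eq_bot_or_eq_top with h | h
  · left
    intro x hx
    have h2 : QuotientGroup.mk' (center K) x ∈ L.map (QuotientGroup.mk' (center K)) := ⟨x, hx, rfl⟩
    rw [h, mem_bot] at h2
    exact (QuotientGroup.eq_one_iff x).1 h2
  · right
    have h3 : ∀ x : K, ∃ l ∈ L, ∃ z ∈ center K, x = l * z := by
      intro x
      have h4 : QuotientGroup.mk' (center K) x ∈ L.map (QuotientGroup.mk' (center K)) := by rw [h]; trivial
      obtain ⟨l, hl, hlx⟩ := h4
      have h5 : l⁻¹ * x ∈ center K := QuotientGroup.eq.1 hlx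
      exact ⟨l, hl, l⁻¹ * x, h5, by group⟩
    have h6 : commutator K ≤ L := by
      rw [commutator_def, Subgroup.commutator_le]
      intro a _ b _
      obtain ⟨l, hl, z, hz, rfl⟩ := h3 a
      obtain ⟨l', hl', z', hz', rfl⟩ := h3 b
      have hz1 := mem_center_iff.1 hz
      have hz2 := mem_center_iff.1 hz'
      have h7 : ⁅l * z, l' * z'⁆ = ⁅l, l'⁆ := by
        rw [commutatorElement_def, commutatorElement_def]
        calc l * z * (l' * z') * (l * z)⁻¹ * (l' * z')⁻¹
            = l * (z * (l' * z')) * z⁻¹ * l⁻¹ * z'⁻¹ * l'⁻¹ := by group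
          _ = l * ((l' * z') * z) * z⁻¹ * l⁻¹ * z'⁻¹ * l'⁻¹ := by rw [hz1]
          _ = l * l' * (z' * l⁻¹) * z'⁻¹ * l'⁻¹ := by group
          _ = l * l' * (l⁻¹ * z') * z'⁻¹ * l'⁻¹ := by rw [hz2]
          _ = l * l' * l⁻¹ * l'⁻¹ := by group
      rw [h7, commutatorElement_def]
      have h8 : l * l' * l⁻¹ * l'⁻¹ = l * (l' * l⁻¹ * l'⁻¹) := by group
      rw [h8]
      exact L.mul_mem hl (hL.conj_mem _ (L.inv_mem hl) l')
    rw [eq_top_iff, ← hK.1.commutator_eq_top]
    exact h6

theorem quasi_congr {A B : Type*} [Group A] [Group B] (e : A ≃* B) (h : Cfsg.IsQuasisimple A) :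
    Cfsg.IsQuasisimple B := by
  have hp := h.1
  have hs := h.2
  refine ⟨?_, ?_⟩
  · refine ⟨?_⟩
    have h1 := map_commutator (⊤ : Subgroup A) ⊤ e.toMonoidHom
    have h2 : (⊤ : Subgroup A).map e.toMonoidHom = ⊤ := map_top_of_surjective _ e.surjective
    have h3 : ⁅(⊤ : Subgroup A), ⊤⁆ = ⊤ := hp.commutator_eq_top
    rw [h3, h2] at h1
    exact h1.symm
  · have hmap : (center A).map e.toMonoidHom = center B := by
      ext b
      constructor
      · rintro ⟨a, ha, rfl⟩
        rw [mem_center_iff]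
        intro g
        have h1 := mem_center_iff.1 ha (e.symm g)
        have h2 := congrArg e h1
        rw [map_mul, map_mul, e.apply_symm_apply] at h2
        exact h2
      · intro hb
        refine ⟨e.symm b, ?_, e.apply_symm_apply b⟩
        rw [SetLike.mem_coe, mem_center_iff]
        intro g
        have h1 := mem_center_iff.1 hb (e g)
        apply e.injective
        rw [map_mul, map_mul, e.apply_symm_apply]
        exact h1
    exact (QuotientGroup.congr (center A) (center B) e hmap).symm.isSimpleGroup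

variable {G : Type*} [Group G]

/-- the subgroup form -/
theorem le_or_central {K D : Subgroup G} (hK : Cfsg.IsQuasisimple ↥K) (hD : D ≤ K)
    (hn : ∀ a ∈ K, ∀ d ∈ D, a * d * a⁻¹ ∈ D) : D = K ∨ ∀ d ∈ D, ∀ a ∈ K, d * a = a * d := by
  have hN : (D.subgroupOf K).Normal := ⟨fun d hd a => hn a a.2 d hd⟩
  rcases normal_cases hK hN with h | h
  · right
    intro d hd a ha
    have h1 : (⟨d, hD hd⟩ : K) ∈ center K := h (by rw [mem_subgroupOf]; exact hd)
    have h2 := mem_center_iff.1 h1 ⟨a, ha⟩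
    exact (congrArg Subtype.val h2).symm
  · left
    exact le_antisymm hD (subgroupOf_eq_top.1 h)

theorem not_comm' {K : Subgroup G} (hK : Cfsg.IsQuasisimple ↥K) (h : ∀ a ∈ K, ∀ b ∈ K, a * b = b * a) : False := by
  obtain ⟨a, b, hab⟩ := not_comm hK
  exact hab (Subtype.ext (h a a.2 b b.2))

/-- two quasisimple subgroups normalising each other are equal or commute -/
theorem eq_or_comm {K L : Subgroup G} (hK : Cfsg.IsQuasisimple ↥K) (hL : Cfsg.IsQuasisimple ↥L)
    (h1 : ∀ a ∈ K, ∀ l ∈ L, a * l * a⁻¹ ∈ L) (h2 : ∀ l ∈ L, ∀ a ∈ K, l * a * l⁻¹ ∈ K) :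
    L = K ∨ ∀ l ∈ L, ∀ a ∈ K, l * a = a * l := by
  rcases le_or_central hK (D := L ⊓ K) inf_le_right (fun a ha d hd =>
    ⟨h1 a ha d hd.1, K.mul_mem (K.mul_mem ha hd.2) (K.inv_mem ha)⟩) with h3 | h3
  · rcases le_or_central hL (D := L ⊓ K) inf_le_left (fun a ha d hd =>
      ⟨L.mul_mem (L.mul_mem ha hd.1) (L.inv_mem ha), h2 a ha d hd.2⟩) with h4 | h4
    · left
      rw [← h4, h3]
    · exfalso
      rw [h3] at h4
      have hKL : K ≤ L := by rw [← h3]; exact inf_le_left
      exact not_comm' hK fun a ha b hb => h4 a ha b (hKL hb)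
  · right
    rcases le_or_central hL (D := L ⊓ K) inf_le_left (fun a ha d hd =>
      ⟨L.mul_mem (L.mul_mem ha hd.1) (L.inv_mem ha), h2 a ha d hd.2⟩) with h4 | h4
    · exfalso
      have hLK : L ≤ K := by rw [← h4]; exact inf_le_right
      rw [h4] at h3
      exact not_comm' hL fun a ha b hb => h3 a ha b (hLK hb)
    · intro l hl a ha
      -- `l ↦ [l, a]`
      have hmem : ∀ l ∈ L, l * a * l⁻¹ * a⁻¹ ∈ L ⊓ K := by
        intro l hl
        refine ⟨?_, K.mul_mem (h2 l hl a ha) (K.inv_mem ha)⟩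
        have : l * a * l⁻¹ * a⁻¹ = l * (a * l⁻¹ * a⁻¹) := by group
        rw [this]
        exact L.mul_mem hl (h1 a ha _ (L.inv_mem hl))
      let f : L →* L :=
        { toFun := fun l => ⟨l * a * (l : G)⁻¹ * a⁻¹, (hmem l l.2).1⟩
          map_one' := by ext; simp
          map_mul' := fun l l' => by
            ext
            show (l : G) * l' * a * ((l : G) * l')⁻¹ * a⁻¹ = (l * a * (l : G)⁻¹ * a⁻¹) * (l' * a * (l' : G)⁻¹ * a⁻¹)
            have h5 := h4 _ (hmem l' l'.2) l l.2
            calc (l : G) * l' * a * ((l : G) * l')⁻¹ * a⁻¹ = l * (l' * a * (l' : G)⁻¹ * a⁻¹) * (a * (l : G)⁻¹ * a⁻¹) := by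
                  group
              _ = (l' * a * (l' : G)⁻¹ * a⁻¹) * l * (a * (l : G)⁻¹ * a⁻¹) := by rw [← h5]
              _ = (l' * a * (l' : G)⁻¹ * a⁻¹) * (l * a * (l : G)⁻¹ * a⁻¹) := by group
              _ = (l * a * (l : G)⁻¹ * a⁻¹) * (l' * a * (l' : G)⁻¹ * a⁻¹) :=
                h4 _ (hmem l' l'.2) _ (hmem l l.2).1 }
      have h6 := perfect_hom hL.1 f (fun x y => Subtype.ext (h4 _ (hmem x x.2) _ (hmem y y.2).1)) ⟨l, hl⟩
      have h7 : l * a * l⁻¹ * a⁻¹ = 1 := congrArg Subtype.val h6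
      calc l * a = (l * a * l⁻¹ * a⁻¹) * (a * l) := by group
        _ = a * l := by rw [h7, one_mul]

/-- the product of commuting subgroups normalises the factors -/
theorem conj_mem_of_comm {ι : Type*} {K : ι → Subgroup G}
    (hcomm : ∀ i j, i ≠ j → ∀ a ∈ K i, ∀ b ∈ K j, a * b = b * a) (i : ι) {a : G} (ha : a ∈ ⨆ i, K i) {x : G}
    (hx : x ∈ K i) : a * x * a⁻¹ ∈ K i := by
  have h1 : (⨆ i, K i) ≤ normalizer (K i : Set G) := by
    refine iSup_le fun j => ?_
    by_cases hij : j = i
    · subst hij; exact le_normalizer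
    · intro a ha
      rw [mem_normalizer_iff]
      intro x
      constructor
      · intro hx
        have := hcomm j i hij a ha x hx
        rw [this, mul_inv_cancel_right]; exact hx
      · intro hx
        have h2 := hcomm j i hij a⁻¹ ((K j).inv_mem ha) _ hx
        have h3 : x = a * x * a⁻¹ := by
          calc x = a⁻¹ * (a * x * a⁻¹) * a := by group
            _ = (a * x * a⁻¹) * a⁻¹ * a := by rw [h2]
            _ = a * x * a⁻¹ := by group
        rw [h3]; exact hx
  exact (mem_normalizer_iff.1 (h1 ha) x).1 hx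

/-- a quasisimple subgroup normalised by a product of commuting quasisimple subgroups is one of them -/
theorem eq_of_comm {ι : Type*} {K : ι → Subgroup G} (hK : ∀ i, Cfsg.IsQuasisimple ↥(K i))
    (hcomm : ∀ i j, i ≠ j → ∀ a ∈ K i, ∀ b ∈ K j, a * b = b * a) {L : Subgroup G} (hL : Cfsg.IsQuasisimple ↥L)
    (hLN : L ≤ ⨆ i, K i) (hn : ∀ a ∈ ⨆ i, K i, ∀ l ∈ L, a * l * a⁻¹ ∈ L) : ∃ i, L = K i := by
  by_contra hcon
  push Not at hcon
  have hKn : ∀ i, ∀ a ∈ ⨆ i, K i, ∀ x ∈ K i, a * x * a⁻¹ ∈ K i := fun i a ha x hx => conj_mem_of_comm hcomm i ha hx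
  have h2 : ∀ i, ∀ l ∈ L, ∀ a ∈ K i, l * a = a * l := by
    intro i
    rcases eq_or_comm (hK i) hL (fun a ha => hn a (le_iSup K i ha)) (fun l hl => hKn i l (hLN hl)) with h | h
    · exact absurd h (hcon i)
    · exact h
  have h3 : (⨆ i, K i) ≤ centralizer (L : Set G) := by
    refine iSup_le fun i a ha => ?_
    rw [mem_centralizer_iff]
    intro l hl
    exact h2 i l hl a ha
  refine not_comm' hL fun a ha b hb => ?_
  exact mem_centralizer_iff.1 (h3 (hLN hb)) a ha

end Cfsg.Agent.H396.Comp
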